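import Cfsg.Agent.H788.NB.TwD4
import Cfsg.Agent.H788.NB.TwE6
import Cfsg.Agent.H428.NBL.Eng
import Cfsg.Agent.H249.PPTwD4

/-!
# The rows `³D₄(q)` and `²E₆(q)` of S5003 (helper788)
-/

set_option autoImplicit false
set_option linter.unusedSectionVars false

namespace Cfsg.Agent.H788.NB

open CoxeterSystem Cfsg Cfsg.Lie Cfsg.Agent.ChevalleyStructure Cfsg.Agent.ChevalleyStructure.Elts
  Cfsg.Agent.ChevalleyStructure.TwistedU Cfsg.Agent.ChevalleyStructure.TwistedFix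
  Cfsg.Agent.ChevalleyStructure.CoxeterGeom Cfsg.Agent.Tits.Roots Cfsg.Agent.Tits.Core
open Cfsg.Agent.Nodes.Reps Cfsg.Agent.Nodes.BNOf
  Cfsg.Agent.Nodes Cfsg.Agent.Nodes.RGDChev Cfsg.Agent.Nodes.Sub
  Cfsg.Agent.Nodes.RGDTwGen Cfsg.Agent.Nodes.RGDFold Cfsg.Agent.Nodes.RGDFoldSL Cfsg.Agent.Nodes.RGDTwCoord
open Cfsg.Agent.H7.NBp Cfsg.Agent.H718.NBIH Cfsg.Agent.KFacts.RgdTI

theorem not_dvd_sl2 {F : Type*} [Field F] [Fintype F] {Y : Type*} [Group Y] {p : ℕ} (hp : p.Prime)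
    (φ : Matrix.SpecialLinearGroup (Fin 2) F →* Y) (h1 : ¬ p ∣ Fintype.card F)
    (h2 : ¬ p ∣ Fintype.card F ^ 2 - 1) : ¬ p ∣ Nat.card φ.range := by
  intro h
  have h3 : Nat.card φ.range ∣ Nat.card (Matrix.SpecialLinearGroup (Fin 2) F) := Subgroup.card_range_dvd φ
  rw [Cfsg.Agent.S0276.card_sl_two (F := F) rfl] at h3
  rcases (hp.dvd_mul).1 (h.trans h3) with h4 | h4
  · exact h1 h4
  · exact h2 h4

theorem nb_star_d4 {K : Type} [Field K] [Fintype K] {q : ℕ} {p : ℕ} [hp : Fact p.Prime]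
    (hq : IsPrimePow q) (hK : Fintype.card K = q ^ 3) (h1 : ¬ p ∣ q) (h2 : ¬ p ∣ q ^ 2 - 1) :
    NB p ↥(twistedD4 K q) := by
  classical
  obtain ⟨φ, hφ⟩ := D4Fixed.exists_frob hq hK
  have hf : ∀ i, ∀ s ∈ Cfsg.Agent.Nodes.RGDTwNode.D4.rep i :: Cfsg.Agent.Nodes.RGDTwNode.D4.rest i, ∀ t : K,
      ((Cfsg.Agent.Nodes.RGDTwD4.eps s : ℤ) : K) * φ t = φ t := fun i s hs t => by
    rw [Cfsg.Agent.Nodes.RGDTwNode.D4.eps_one i s hs, Int.cast_one, one_mul]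
  have hq1 : 1 < q := hq.one_lt
  obtain ⟨r, hr, hcp⟩ : ∃ p : ℕ, p.Prime ∧ CharP K p := by
    obtain ⟨p, hcp⟩ := CharP.exists K
    exact ⟨p, CharP.char_is_prime K p, hcp⟩
  have : Fact r.Prime := ⟨hr⟩
  have hpr : p ≠ r := by
    rintro rfl
    apply h1
    have h3 : p ∣ Fintype.card K := by
      obtain ⟨n, -, hn⟩ := FiniteField.card K p
      rw [hn]
      exact dvd_pow_self p n.ne_zero
    rw [hK] at h3
    exact hp.out.dvd_of_dvd_pow h3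
  let cs : CoxeterSystem CoxeterMatrix.G₂ CoxeterMatrix.G₂.Group := CoxeterMatrix.G₂.toCoxeterSystem
  have FG := Cfsg.Agent.Nodes.RGDTwD4.foldGrp (K := K) hφ (D4Fixed.twisted_le_fix hK hφ)
  have FD := Cfsg.Agent.Nodes.RGDTwD4.foldData
  have N := Cfsg.Agent.Nodes.RGDTwNode.D4.nodeOK
  have h := Cfsg.Agent.Nodes.RGDTwD4.isCartan
  have : Finite CoxeterMatrix.G₂.Group := H249.PPTwD4.finiteW cs
  have R' := Cfsg.Agent.Nodes.RGDFold.rgd cs h FD FG r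
  have L3 := H249.PPTwD4.lr3 (cs := cs) hK hφ r
  have L0 : LR R' (sr 0) := by
    have h3 := L3.act (cs.simple 0 * cs.simple 1)⁻¹
    rw [← H249.PPTwD4.rep3 cs, rep_inv_apply] at h3
    exact h3
  have hGG := Cfsg.Agent.KFacts.RgdRigid.GG_eq_top (cs := cs) (h := h)
    (T := (chevD4.diagonalSubgroup K ⊓ twistedD4 K q).subgroupOf (twistedD4 K q))
    (X := fun z => (Cfsg.Agent.Nodes.RGDFold.R chevD4 Cfsg.Agent.Nodes.RGDTwD4.hp K RGDTwD4.J
      (D4Fixed.sig φ) z).subgroupOf (twistedD4 K q))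
    (Cfsg.Agent.Nodes.RGDFold.G1_eq_top cs h FD FG r)
  refine H428.NBL.nb R' hpr L0 hGG ?_
  rw [← H280.ObTwE.range_eq FG N hf 0 cs h FD r]
  let _ : Fintype (Fx φ ((Cfsg.Agent.Nodes.RGDTwNode.D4.rest 0).length + 1)) := Fintype.ofFinite _
  have hc : Fintype.card (Fx φ ((Cfsg.Agent.Nodes.RGDTwNode.D4.rest 0).length + 1)) = q := by
    rw [← Nat.card_eq_fintype_card, ← FixedCard.card_fixed hq1 hK]
    refine Nat.card_congr (Equiv.subtypeEquivRight fun t => ?_)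
    rw [mem_Fx]
    show φ t = t ↔ _
    rw [hφ]
  exact not_dvd_sl2 hp.out _ (by rw [hc]; exact h1) (by rw [hc]; exact h2)

theorem nb_star_e6 {K : Type} [Field K] [Fintype K] {q : ℕ} {p : ℕ} [hp : Fact p.Prime]
    (hq : IsPrimePow q) (hK : Fintype.card K = q ^ 2) (h1 : ¬ p ∣ q) (h2 : ¬ p ∣ q ^ 2 - 1) :
    NB p ↥(twistedE6 K q) := by
  classical
  obtain ⟨φ, hφ, hqq⟩ := TwE6Basic.exists_frob hq hK
  have hf : ∀ i, ∀ s ∈ Cfsg.Agent.Nodes.RGDTwNode.E6.rep i :: Cfsg.Agent.Nodes.RGDTwNode.E6.rest i, ∀ t : K,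
      ((TwistedE6Sigma.eps s : ℤ) : K) * φ t = φ t := fun i s hs t => by
    rw [Cfsg.Agent.Nodes.RGDTwNode.E6.eps_one i s hs, Int.cast_one, one_mul]
  have hq1 : 1 < q := hq.one_lt
  obtain ⟨r, hr, hcp⟩ : ∃ p : ℕ, p.Prime ∧ CharP K p := by
    obtain ⟨p, hcp⟩ := CharP.exists K
    exact ⟨p, CharP.char_is_prime K p, hcp⟩
  have : Fact r.Prime := ⟨hr⟩
  have hpr : p ≠ r := by
    rintro rfl
    apply h1
    have h3 : p ∣ Fintype.card K := by
      obtain ⟨n, -, hn⟩ := FiniteField.card K p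
      rw [hn]
      exact dvd_pow_self p n.ne_zero
    rw [hK] at h3
    exact hp.out.dvd_of_dvd_pow h3
  let cs : CoxeterSystem CoxeterMatrix.F₄ CoxeterMatrix.F₄.Group := CoxeterMatrix.F₄.toCoxeterSystem
  have FG := Cfsg.Agent.Nodes.RGDTwE6.foldGrp (K := K) hφ hqq
  have FD := Cfsg.Agent.Nodes.RGDTwE6.foldData
  have N := Cfsg.Agent.Nodes.RGDTwNode.E6.nodeOK
  have h := Cfsg.Agent.Nodes.RGDTwE6.isCartan
  have : Finite CoxeterMatrix.F₄.Group := Cfsg.Agent.KFacts.TwESix.Comb.finiteW cs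
  have R' := Cfsg.Agent.Nodes.RGDFold.rgd cs h FD FG r
  have L0 : LR R' (sr 0) := Cfsg.Agent.KFacts.TwESix.Grp.lr_long cs hφ hqq r (isRoot_sr cs h 0) (by decide +kernel)
  have hGG := Cfsg.Agent.KFacts.RgdRigid.GG_eq_top (cs := cs) (h := h)
    (T := (chevE6.diagonalSubgroup K ⊓ twistedE6 K q).subgroupOf (twistedE6 K q))
    (X := fun z => (Cfsg.Agent.Nodes.RGDFold.R chevE6 Cfsg.Agent.Nodes.RGDTwE6.hp K RGDTwE6.J
      (TwE6Basic.sg φ) z).subgroupOf (twistedE6 K q))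
    (Cfsg.Agent.Nodes.RGDFold.G1_eq_top cs h FD FG r)
  refine H428.NBL.nb R' hpr L0 hGG ?_
  rw [← H280.ObTwE.range_eq FG N hf 0 cs h FD r]
  let _ : Fintype (Fx φ ((Cfsg.Agent.Nodes.RGDTwNode.E6.rest 0).length + 1)) := Fintype.ofFinite _
  have hc : Fintype.card (Fx φ ((Cfsg.Agent.Nodes.RGDTwNode.E6.rest 0).length + 1)) = q := by
    rw [← Nat.card_eq_fintype_card, ← FixedCard.card_fixed hq1 hK]
    refine Nat.card_congr (Equiv.subtypeEquivRight fun t => ?_)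
    rw [mem_Fx]
    show φ t = t ↔ _
    rw [hφ]
  exact not_dvd_sl2 hp.out _ (by rw [hc]; exact h1) (by rw [hc]; exact h2)

/-! ### The rows -/

variable {p : ℕ} [hpf : Fact p.Prime]

/-- **`³D₄(q)`** -/
theorem nb_3d4 (h2 : p ≠ 2) (S : Type) [Group S] [Finite S] [IsSimpleGroup S] (h : Lie.Iso3D4 S)
    (ih : IH p (Nat.card S)) : NB p S := by
  obtain ⟨K, _, _, q, hq, hK, ⟨e⟩⟩ := h
  by_cases h1 : p ∣ q
  · refine NB.of_lie (p := p) (Or.inr (Or.inr (Or.inr (Or.inr (Or.inr (Or.inr (Or.inr (Or.inl ?_))))))))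
    have hc : CharP K p := by
      obtain ⟨r, hcp⟩ := CharP.exists K
      have hr : r.Prime := CharP.char_is_prime K r
      have : Fact r.Prime := ⟨hr⟩
      obtain ⟨n, -, hn⟩ := FiniteField.card K r
      have h3 : p ∣ r ^ (n : ℕ) := by
        rw [← hn, hK]
        exact dvd_pow h1 three_ne_zero
      have h4 : p = r := (Nat.prime_dvd_prime_iff_eq hpf.out hr).1 (hpf.out.dvd_of_dvd_pow h3)
      rw [h4]
      exact hcp
    exact ⟨K, inferInstance, inferInstance, hc, q, hq, Or.inr ⟨hK, ⟨e⟩⟩⟩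
  · have hs : IsSimpleGroup ↥(twistedD4 K q) := e.symm.isSimpleGroup
    refine NB.iso e.symm ?_
    by_cases h3 : p ∣ q ^ 2 - 1
    · refine TwD4.nb_tor h2 hq hK h3 ?_
      rw [← Nat.card_congr e.toEquiv]
      exact ih
    · exact nb_star_d4 hq hK h1 h3

/-- **`²E₆(q)`** -/
theorem nb_2e6 (h2 : p ≠ 2) (S : Type) [Group S] [Finite S] [IsSimpleGroup S] (h : Lie.Iso2E6 S)
    (ih : IH p (Nat.card S)) : NB p S := by
  obtain ⟨K, _, _, q, hq, hK, ⟨e⟩⟩ := h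
  by_cases h1 : p ∣ q
  · refine NB.of_lie (p := p) (Or.inr (Or.inr (Or.inr (Or.inr (Or.inr (Or.inr (Or.inr (Or.inl ?_))))))))
    have hc : CharP K p := by
      obtain ⟨r, hcp⟩ := CharP.exists K
      have hr : r.Prime := CharP.char_is_prime K r
      have : Fact r.Prime := ⟨hr⟩
      obtain ⟨n, -, hn⟩ := FiniteField.card K r
      have h3 : p ∣ r ^ (n : ℕ) := by
        rw [← hn, hK]
        exact dvd_pow h1 two_ne_zero
      have h4 : p = r := (Nat.prime_dvd_prime_iff_eq hpf.out hr).1 (hpf.out.dvd_of_dvd_pow h3)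
      rw [h4]
      exact hcp
    exact ⟨K, inferInstance, inferInstance, hc, q, hq, Or.inl ⟨hK, ⟨e⟩⟩⟩
  · have hs : IsSimpleGroup ↥(twistedE6 K q) := e.symm.isSimpleGroup
    refine NB.iso e.symm ?_
    by_cases h3 : p ∣ q ^ 2 - 1
    · refine TwE6.nb_tor h2 hq hK h3 ?_
      rw [← Nat.card_congr e.toEquiv]
      exact ih
    · exact nb_star_e6 hq hK h1 h3

end Cfsg.Agent.H788.NB
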